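import Cfsg.Agent.H59.EP.Count

/-!
# S3499: minimal invariant subgroups (helper775)

`K ≠ 1` a subgroup of the finite group `B`, invariant under the automorphisms in `Δ` and minimal with that property. Then
`K` is elementary abelian, or simple, or it contains a perfect subgroup `E ≠ 1` with `[E, τ E] = 1 = E ∩ τ E` for some
`τ ∈ Δ`.
-/

set_option autoImplicit false

namespace Cfsg.Agent.H775.EPS

open Subgroup Cfsg.Agent.H59.EP
open scoped commutatorElement

variable {B : Type*} [Group B] [Finite B]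

/-- restriction of an automorphism to an invariant subgroup -/
noncomputable def restr (K : Subgroup B) (τ : MulAut B) (h : ∀ k ∈ K, τ k ∈ K) : MulAut K :=
  MulEquiv.ofBijective ((τ.toMonoidHom.comp K.subtype).codRestrict K fun k => h k k.2) (by
    apply Function.Injective.bijective_of_finite
    intro a b hab
    exact Subtype.ext (τ.injective (congrArg Subtype.val hab)))

theorem restr_coe (K : Subgroup B) (τ : MulAut B) (h : ∀ k ∈ K, τ k ∈ K) (k : K) : ((restr K τ h k : K) : B) = τ k := rfl

theorem char_inv {K : Subgroup B} {τ : MulAut B} (h : ∀ k ∈ K, τ k ∈ K) {Y : Subgroup K} (hY : Y.Characteristic) :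
    ∀ k ∈ Y.map K.subtype, τ k ∈ Y.map K.subtype := by
  rintro _ ⟨y, hy, rfl⟩
  refine ⟨restr K τ h y, ?_, rfl⟩
  have h1 := characteristic_iff_map_eq.1 hY (restr K τ h)
  have h2 : restr K τ h y ∈ Y.map (restr K τ h).toMonoidHom := ⟨y, hy, rfl⟩
  rwa [h1] at h2

theorem trichotomy {Δ : Set (MulAut B)} {K : Subgroup B} (hne : K ≠ ⊥) (hinv : ∀ τ ∈ Δ, ∀ k ∈ K, τ k ∈ K)
    (hmin : ∀ K' : Subgroup B, K' ≤ K → K' ≠ ⊥ → (∀ τ ∈ Δ, ∀ k ∈ K', τ k ∈ K') → K' = K) :
    (∃ s : ℕ, s.Prime ∧ s ∣ Nat.card K ∧ ElAb s K) ∨ (IsSimpleGroup K ∧ ¬ Group.IsSolvable K) ∨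
      (∃ E : Subgroup B, E ≤ K ∧ E ≠ ⊥ ∧ ⁅E, E⁆ = E ∧ ∃ τ ∈ Δ, E ⊓ E.map τ.toMonoidHom = ⊥ ∧
        ∀ a ∈ E, ∀ b ∈ E, a * τ b = τ b * a) := by
  have hnt : Nontrivial K := (Subgroup.nontrivial_iff_ne_bot K).2 hne
  have hsub : ∀ Y : Subgroup K, Y ≠ ⊥ → (∀ τ ∈ Δ, ∀ k ∈ Y.map K.subtype, τ k ∈ Y.map K.subtype) → Y = ⊤ := by
    intro Y hYne hY
    have h1 := hmin (Y.map K.subtype) (Subgroup.map_subtype_le Y) (by
      intro e
      rw [Subgroup.map_eq_bot_iff_of_injective _ K.subtype_injective] at e
      exact hYne e) hY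
    rw [Subgroup.eq_top_iff']
    intro y
    have h2 : (y : B) ∈ Y.map K.subtype := by rw [h1]; exact y.2
    obtain ⟨z, hz, e⟩ := h2
    have : z = y := Subtype.ext e
    rw [← this]
    exact hz
  have hc : ∀ Y : Subgroup K, Y.Characteristic → Y = ⊥ ∨ Y = ⊤ := by
    intro Y hY
    by_cases hYb : Y = ⊥
    · exact Or.inl hYb
    · exact Or.inr (hsub Y hYb fun τ hτ => char_inv (hinv τ hτ) hY)
  by_cases hcomm : ∀ a b : K, a * b = b * a
  · left
    obtain ⟨s, hs, hsd⟩ := Nat.exists_prime_and_dvd (n := Nat.card K) (by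
      have := Finite.one_lt_card (α := K)
      omega)
    have : Fact s.Prime := ⟨hs⟩
    obtain ⟨x, hx⟩ := exists_prime_orderOf_dvd_card' s hsd
    let Y : Subgroup K :=
      { carrier := {y | y ^ s = 1}
        one_mem' := one_pow s
        mul_mem' := fun {a b} ha hb => by
          show (a * b) ^ s = 1
          rw [(show Commute a b from hcomm a b).mul_pow, show a ^ s = 1 from ha, show b ^ s = 1 from hb, one_mul]
        inv_mem' := fun {a} ha => by
          show a⁻¹ ^ s = 1
          rw [inv_pow, show a ^ s = 1 from ha, inv_one] }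
    have hY : Y.Characteristic := by
      rw [characteristic_iff_map_le]
      rintro φ _ ⟨y, hy, rfl⟩
      show (φ y) ^ s = 1
      rw [← map_pow, show y ^ s = 1 from hy, map_one]
    refine ⟨s, hs, hsd, fun a ha b hb => congrArg Subtype.val (hcomm ⟨a, ha⟩ ⟨b, hb⟩), ?_⟩
    rcases hc Y hY with h | h
    · exfalso
      have h1 : x ∈ Y := by
        show x ^ s = 1
        rw [← hx, pow_orderOf_eq_one]
      rw [h, mem_bot] at h1
      rw [h1, orderOf_one] at hx
      exact hs.one_lt.ne hx
    · intro a ha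
      have h1 : (⟨a, ha⟩ : K) ∈ Y := by rw [h]; exact mem_top _
      exact congrArg Subtype.val (show (⟨a, ha⟩ : K) ^ s = 1 from h1)
  · right
    have hnc : ¬ Group.IsSolvable K := by
      intro hsol
      have hch : (commutator K).Characteristic := inferInstance
      rcases hc _ hch with h | h
      · apply hcomm
        intro a b
        have h1 : ⁅a, b⁆ ∈ commutator K := commutator_mem_commutator (mem_top _) (mem_top _)
        rw [h, mem_bot, commutatorElement_eq_one_iff_mul_comm] at h1
        exact h1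
      · have h1 : commutator K < ⊤ := Group.IsSolvable.commutator_lt_top_of_nontrivial K
        exact h1.ne h
    -- the solvable normal subgroups are trivial
    have hrad : ∀ N : Subgroup K, N.Normal → Group.IsSolvable N → N = ⊥ := by
      intro N hN hNs
      rcases hc _ (Cfsg.Agent.H459.Rad.rad_spec (G := K)).1 with h | h
      · rw [eq_bot_iff, ← h]
        exact Cfsg.Agent.H459.Rad.le_rad hN hNs
      · exact absurd (Cfsg.Agent.H459.Rad.rad_eq_top_iff.1 h) hnc
    -- a minimal normal subgroup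
    have hfin : {N : Subgroup K | N.Normal ∧ N ≠ ⊥}.Finite := Set.toFinite _
    obtain ⟨N, hN⟩ := hfin.exists_minimal ⟨⊤, inferInstance, top_ne_bot⟩
    have hNn : N.Normal := hN.prop.1
    have hNne : N ≠ ⊥ := hN.prop.2
    have hminN : ∀ K' : Subgroup K, K'.Normal → K' ≤ N → K' = ⊥ ∨ K' = N := by
      intro K' hK hKN
      by_cases h : K' = ⊥
      · exact Or.inl h
      · exact Or.inr (le_antisymm hKN (hN.le_of_le ⟨hK, h⟩ hKN))
    by_cases hall : ∀ τ ∈ Δ, ∀ k ∈ N.map K.subtype, τ k ∈ N.map K.subtype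
    · left
      have hNtop := hsub N hNne hall
      refine ⟨{ exists_pair_ne := exists_pair_ne K, eq_bot_or_eq_top_of_normal := fun K' hK => ?_ }, hnc⟩
      rcases hminN K' hK (by rw [hNtop]; exact le_top) with h | h
      · exact Or.inl h
      · exact Or.inr (h.trans hNtop)
    · right
      push Not at hall
      obtain ⟨τ, hτ, k, hk, hkn⟩ := hall
      set φ := restr K τ (hinv τ hτ) with hφ
      have hn' : (N.map φ.toMonoidHom).Normal := hNn.map _ φ.surjective
      have hcard : Nat.card (N.map φ.toMonoidHom) = Nat.card N :=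
        (Nat.card_congr (N.equivMapOfInjective _ φ.injective).toEquiv).symm
      have hdis : N ⊓ N.map φ.toMonoidHom = ⊥ := by
        rcases hminN (N ⊓ N.map φ.toMonoidHom) (by infer_instance) (inf_le_left) with h | h
        · exact h
        · exfalso
          have h1 : N ≤ N.map φ.toMonoidHom := le_trans (le_of_eq h.symm) inf_le_right
          have h2 : N.map φ.toMonoidHom = N := (Subgroup.eq_of_le_of_card_ge h1 hcard.le).symm
          apply hkn
          obtain ⟨n, hn, rfl⟩ := hk
          refine ⟨φ n, ?_, rfl⟩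
          rw [← h2]
          exact ⟨n, hn, rfl⟩
      have hper : ⁅N, N⁆ = N := by
        rcases hminN ⁅N, N⁆ inferInstance (Subgroup.commutator_le_left N N) with h | h
        · exfalso
          apply hNne
          apply hrad N hNn
          apply Group.isSolvable_of_comm
          intro a b
          have h1 : ⁅(a : K), (b : K)⁆ ∈ ⁅N, N⁆ := commutator_mem_commutator a.2 b.2
          rw [h, mem_bot, commutatorElement_eq_one_iff_mul_comm] at h1
          exact Subtype.ext h1
        · exact h
      refine ⟨N.map K.subtype, Subgroup.map_subtype_le N, ?_, ?_, τ, hτ, ?_, ?_⟩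
      · intro e
        rw [Subgroup.map_eq_bot_iff_of_injective _ K.subtype_injective] at e
        exact hNne e
      · rw [← Subgroup.map_commutator, hper]
      · rw [Subgroup.eq_bot_iff_forall]
        rintro _ ⟨⟨n, hn, rfl⟩, ⟨_, ⟨m, hm, rfl⟩, e⟩⟩
        have h1 : φ m = n := Subtype.ext e
        have h2 : n ∈ N ⊓ N.map φ.toMonoidHom := ⟨hn, ⟨m, hm, h1⟩⟩
        rw [hdis, mem_bot] at h2
        rw [h2]
        rfl
      · rintro _ ⟨n, hn, rfl⟩ _ ⟨m, hm, rfl⟩
        have h1 : Commute n (φ m) := Subgroup.commute_of_normal_of_disjoint N (N.map φ.toMonoidHom) hNn hn'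
          (disjoint_iff.2 hdis) n (φ m) hn ⟨m, hm, rfl⟩
        exact congrArg Subtype.val h1.eq

end Cfsg.Agent.H775.EPS
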