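import Cfsg.Agent.H775.EPS.Hit
import Cfsg.Agent.H775.EPS.MinInv
import Cfsg.Agent.H59.EP.UB

/-!
# S3499: minimal invariant subgroups of the two-point stabilisers (helper775)

`N` simple nonabelian, normal in `A` with `C_A(N) = 1`, `|A| ≤ 2 |N|`. Every `M = A ∩ A^x` is the normaliser in `A` of a
subgroup `K ≠ 1` of `M ∩ N` which is elementary abelian, simple, or has a pair of commuting perfect subgroups.
-/

set_option autoImplicit false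

namespace Cfsg.Agent.H775.EPS

open Subgroup Cfsg.Agent.H284 Cfsg.Agent.H173.EP Cfsg.Agent.H59.EP

universe u

variable {Q : Type u} [Group Q] [Finite Q] {A : Subgroup Q} {Γ : Subgroup (MulAut Q)}

/-- the socle is invariant under `Γ` -/
theorem soc_inv (h : EPT A Γ) {N : Subgroup Q} (hNA : N ≤ A) (hN : ∀ a ∈ A, ∀ n ∈ N, a * n * a⁻¹ ∈ N)
    (hNs : IsSimpleGroup N) (hC : ∀ a ∈ A, (∀ n ∈ N, a * n = n * a) → a = 1) {σ : MulAut Q} (hσ : σ ∈ Γ) :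
    ∀ n ∈ N, σ n ∈ N := by
  have hσA : ∀ a ∈ A, σ a ∈ A := fun a ha => (h.inv σ hσ a).2 ha
  have hσA' : ∀ a ∈ A, σ⁻¹ a ∈ A := fun a ha => (h.inv σ⁻¹ (Γ.inv_mem hσ) a).2 ha
  have hN'A : N.map σ.toMonoidHom ≤ A := by
    rintro _ ⟨n, hn, rfl⟩
    exact hσA n (hNA hn)
  have hN'n : ∀ a ∈ A, ∀ n ∈ N.map σ.toMonoidHom, a * n * a⁻¹ ∈ N.map σ.toMonoidHom := by
    rintro a ha _ ⟨n, hn, rfl⟩
    refine ⟨σ⁻¹ a * n * (σ⁻¹ a)⁻¹, hN _ (hσA' a ha) n hn, ?_⟩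
    show σ (σ⁻¹ a * n * (σ⁻¹ a)⁻¹) = a * σ n * a⁻¹
    rw [map_mul, map_mul, map_inv, MulAut.apply_inv_self]
  have h1 : ((N.map σ.toMonoidHom).subgroupOf N).Normal := ⟨by
    rintro ⟨k, hk⟩ hk' ⟨n, hn⟩
    exact hN'n n (hNA hn) k hk'⟩
  have hcard : Nat.card (N.map σ.toMonoidHom) = Nat.card N :=
    Subgroup.card_map_of_injective σ.injective
  rcases hNs.eq_bot_or_eq_top_of_normal _ h1 with h2 | h2
  · exfalso
    have hnt := hNs.toNontrivial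
    apply (Subgroup.nontrivial_iff_ne_bot N).1 hnt
    rw [Subgroup.eq_bot_iff_forall]
    intro n hn
    have hσn : σ n ∈ N.map σ.toMonoidHom := ⟨n, hn, rfl⟩
    have h3 : σ n = 1 := by
      apply hC _ (hN'A hσn)
      intro m hm
      have h4 : σ n * m * (σ n)⁻¹ * m⁻¹ ∈ N := N.mul_mem (hN _ (hN'A hσn) m hm) (N.inv_mem hm)
      have h5 : σ n * m * (σ n)⁻¹ * m⁻¹ ∈ N.map σ.toMonoidHom := by
        have e : σ n * m * (σ n)⁻¹ * m⁻¹ = σ n * (m * (σ n)⁻¹ * m⁻¹) := by group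
        rw [e]
        exact mul_mem hσn (hN'n m (hNA hm) _ (inv_mem hσn))
      have h6 : (⟨_, h4⟩ : N) ∈ (N.map σ.toMonoidHom).subgroupOf N := h5
      rw [h2, mem_bot] at h6
      have h7 := congrArg Subtype.val h6
      change σ n * m * (σ n)⁻¹ * m⁻¹ = 1 at h7
      rwa [mul_inv_eq_one, mul_inv_eq_iff_eq_mul] at h7
    apply σ.injective
    rw [h3, map_one]
  · rw [Subgroup.subgroupOf_eq_top] at h2
    have h3 : N = N.map σ.toMonoidHom := Subgroup.eq_of_le_of_card_ge h2 hcard.le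
    intro n hn
    rw [h3]
    exact ⟨n, hn, rfl⟩

/-- every two-point stabiliser meets the socle -/
theorem inf_soc_ne_bot {N : Subgroup Q} (hNA : N ≤ A) (hN : ∀ a ∈ A, ∀ n ∈ N, a * n * a⁻¹ ∈ N)
    (hcard : Nat.card A ≤ 2 * Nat.card N) {M : Subgroup Q} (hMA : M ≤ A) (h6 : 6 ≤ Nat.card M) : M ⊓ N ≠ ⊥ := by
  intro e
  have hn : (N.subgroupOf A).Normal := ⟨by
    rintro ⟨n, hn'⟩ hn ⟨a, ha⟩
    exact hN a ha n hn⟩
  have h1 : (M.subgroupOf A) ⊓ (N.subgroupOf A) = ⊥ := by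
    rw [Subgroup.eq_bot_iff_forall]
    rintro ⟨x, hx⟩ hx'
    have h2 : x ∈ M ⊓ N := ⟨(mem_inf.1 hx').1, (mem_inf.1 hx').2⟩
    rw [e, mem_bot] at h2
    exact Subtype.ext h2
  have h2 := card_mul_dvd h1
  rw [Nat.card_congr (Subgroup.subgroupOfEquivOfLe hMA).toEquiv,
    Nat.card_congr (Subgroup.subgroupOfEquivOfLe hNA).toEquiv] at h2
  have h3 := Nat.le_of_dvd Nat.card_pos h2
  have h4 : 0 < Nat.card N := Nat.card_pos
  have h5 : 6 * Nat.card N ≤ Nat.card M * Nat.card N := Nat.mul_le_mul_right _ h6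
  omega

/-- **the subgroup `K`** -/
theorem exists_K (h : EPT A Γ) {N : Subgroup Q} (hNA : N ≤ A) (hN : ∀ a ∈ A, ∀ n ∈ N, a * n * a⁻¹ ∈ N)
    (hNs : IsSimpleGroup N) (hC : ∀ a ∈ A, (∀ n ∈ N, a * n = n * a) → a = 1)
    {x : Q} (hx : x ∉ A) (hMN : A ⊓ cj x A ⊓ N ≠ ⊥) :
    ∃ K : Subgroup N, K ≠ ⊥ ∧ (∀ k ∈ K, (k : Q) ∈ A ⊓ cj x A) ∧
      (∀ a, a ∈ A ⊓ cj x A ↔ a ∈ A ∧ ∀ k ∈ K.map N.subtype, a * k * a⁻¹ ∈ K.map N.subtype) ∧
      ((∃ s : ℕ, s.Prime ∧ s ∣ Nat.card K ∧ ElAb s K) ∨ (IsSimpleGroup K ∧ ¬ Group.IsSolvable K) ∨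
        (∃ E : Subgroup N, E ≤ K ∧ E ≠ ⊥ ∧ ⁅E, E⁆ = E ∧ ∃ τ : MulAut N, E ⊓ E.map τ.toMonoidHom = ⊥ ∧
          ∀ a ∈ E, ∀ b ∈ E, a * τ b = τ b * a)) := by
  classical
  set Δ : Set (MulAut N) := {τ | ∃ σ ∈ Γ, x⁻¹ * σ x ∈ A ∧ ∀ n : N, ((τ n : N) : Q) = σ n} with hΔ
  have hres : ∀ σ ∈ Γ, x⁻¹ * σ x ∈ A → ∃ τ ∈ Δ, ∀ n : N, ((τ n : N) : Q) = σ n := by
    intro σ hσ hxσ
    have h1 : ∀ n ∈ N, σ n ∈ N := soc_inv h hNA hN hNs hC hσ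
    exact ⟨restr N σ h1, ⟨σ, hσ, hxσ, fun n => rfl⟩, fun n => rfl⟩
  -- the minimal subgroup
  set 𝓗 : Set (Subgroup N) := {K | K ≠ ⊥ ∧ (∀ k ∈ K, (k : Q) ∈ A ⊓ cj x A) ∧ ∀ τ ∈ Δ, ∀ k ∈ K, τ k ∈ K} with h𝓗
  have hfin : 𝓗.Finite := Set.toFinite _
  have hne : 𝓗.Nonempty := by
    refine ⟨(A ⊓ cj x A).subgroupOf N, ?_, fun k hk => hk, ?_⟩
    · intro e
      apply hMN
      rw [Subgroup.subgroupOf_eq_bot, disjoint_iff] at e
      exact e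
    · rintro τ ⟨σ, hσ, hxσ, hτ⟩ k hk
      have h1 : ((τ k : N) : Q) ∈ A ⊓ cj x A := by
        rw [hτ]
        exact inf_inv h hσ hxσ hk
      exact h1
  obtain ⟨K, hK⟩ := hfin.exists_minimal hne
  obtain ⟨hK1, hK2, hK3⟩ := hK.prop
  have hmin : ∀ K' : Subgroup N, K' ≤ K → K' ≠ ⊥ → (∀ τ ∈ Δ, ∀ k ∈ K', τ k ∈ K') → K' = K := by
    intro K' hK' hne' hinv
    exact le_antisymm hK' (hK.le_of_le ⟨hne', fun k hk => hK2 k (hK' hk), hinv⟩ hK')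
  have hinv : ∀ σ ∈ Γ, x⁻¹ * σ x ∈ A → ∀ k ∈ K.map N.subtype, σ k ∈ K.map N.subtype := by
    rintro σ hσ hxσ _ ⟨k, hk, rfl⟩
    obtain ⟨τ, hτΔ, hτ⟩ := hres σ hσ hxσ
    exact ⟨τ k, hK3 τ hτΔ k hk, hτ k⟩
  refine ⟨K, hK1, hK2, ?_, ?_⟩
  · intro a
    constructor
    · intro ha
      refine ⟨ha.1, ?_⟩
      have h1 := hinv (MulAut.conj a) ((h.conj a).2 ha.1) (by
        have h2 := mem_cj.1 ha.2
        show x⁻¹ * (a * x * a⁻¹) ∈ A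
        have e : x⁻¹ * (a * x * a⁻¹) = x⁻¹ * a * x * a⁻¹ := by group
        rw [e]
        exact A.mul_mem h2 (A.inv_mem ha.1))
      exact h1
    · rintro ⟨ha, hk⟩
      refine mem_inf.2 ⟨ha, ?_⟩
      have h1 := h.norm x hx (K.map N.subtype) (by
        rintro _ ⟨k, hk', rfl⟩
        exact hK2 k hk') hinv (by
        intro e
        rw [Subgroup.map_eq_bot_iff_of_injective _ N.subtype_injective] at e
        exact hK1 e) (MulAut.conj a) ((h.conj a).2 ha) hk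
      have h2 : x⁻¹ * (a * x * a⁻¹) ∈ A := h1
      rw [mem_cj]
      have e : x⁻¹ * a * x = x⁻¹ * (a * x * a⁻¹) * a := by group
      rw [e]
      exact A.mul_mem h2 ha
  · rcases trichotomy hK1 hK3 hmin with h1 | h1 | ⟨E, h1, h2, h3, τ, -, h4⟩
    · exact Or.inl h1
    · exact Or.inr (Or.inl h1)
    · exact Or.inr (Or.inr ⟨E, h1, h2, h3, τ, h4⟩)

/-- the elementary abelian subgroups -/
def SE (B : Type*) [Group B] (s : ℕ) : Set (Subgroup B) := {K | ElAb s K ∧ K ≠ ⊥}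

/-- the simple subgroups -/
def SS (B : Type*) [Group B] : Set (Subgroup B) := {K | IsSimpleGroup K ∧ ¬ Group.IsSolvable K}

theorem ncard_biUnion_le' {ι α : Type*} [Finite α] (I : Finset ι) (f : ι → Set α) :
    (⋃ i ∈ I, f i).ncard ≤ ∑ i ∈ I, (f i).ncard := by
  classical
  induction I using Finset.induction_on with
  | empty => simp
  | insert j I hj ih =>
    rw [Finset.sum_insert hj, Finset.set_biUnion_insert]
    exact (Set.ncard_union_le _ _).trans (Nat.add_le_add_left ih _)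

/-- **the counts** -/
theorem counts (h : EPT A Γ) {N : Subgroup Q} (hNA : N ≤ A) (hN : ∀ a ∈ A, ∀ n ∈ N, a * n * a⁻¹ ∈ N)
    (hNs : IsSimpleGroup N) (hC : ∀ a ∈ A, (∀ n ∈ N, a * n = n * a) → a = 1) (hcard : Nat.card A ≤ 2 * Nat.card N)
    (h6 : ∀ x, x ∉ A → 6 ≤ Nat.card (A ⊓ cj x A : Subgroup Q))
    (hE : ∀ (E : Subgroup N) (τ : MulAut N), E ≠ ⊥ → ⁅E, E⁆ = E → E ⊓ E.map τ.toMonoidHom = ⊥ →
      (∀ a ∈ E, ∀ b ∈ E, a * τ b = τ b * a) → False)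
    (hev : ∀ K ∈ SS N, 2 ∣ Nat.card K) (P : Finset ℕ) (hP : ∀ s : ℕ, s.Prime → s ∣ Nat.card N → s = 2 ∨ s = 3 ∨ s ∈ P) :
    {M : Subgroup Q | ∃ x, x ∉ A ∧ M = A ⊓ cj x A}.ncard ≤
      (SE N 2).ncard + (SE N 3).ncard + ∑ p ∈ P, (SE N p).ncard + (SS N).ncard ∧
    {M : Subgroup Q | (∃ x, x ∉ A ∧ M = A ⊓ cj x A) ∧ ∀ t ∈ {t : Q | t ∈ N ∧ orderOf t = 2}, t ∉ M}.ncard ≤
      (SE N 3).ncard + ∑ p ∈ P, (SE N p).ncard := by
  classical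
  have key : ∀ M ∈ {M : Subgroup Q | ∃ x, x ∉ A ∧ M = A ⊓ cj x A}, ∃ K : Subgroup N, K ≠ ⊥ ∧ (∀ k ∈ K, (k : Q) ∈ M) ∧
      (∀ a, a ∈ M ↔ a ∈ A ∧ ∀ k ∈ K.map N.subtype, a * k * a⁻¹ ∈ K.map N.subtype) ∧
      (K ∈ SE N 2 ∨ K ∈ SE N 3 ∨ (∃ p ∈ P, K ∈ SE N p) ∨ K ∈ SS N) := by
    rintro _ ⟨x, hx, rfl⟩
    obtain ⟨K, h1, h2, h3, h4⟩ := exists_K h hNA hN hNs hC hx
      (inf_soc_ne_bot hNA hN hcard inf_le_left (h6 x hx))
    refine ⟨K, h1, h2, h3, ?_⟩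
    rcases h4 with ⟨s, hs, hsd, hel⟩ | h4 | ⟨E, -, h4, h5, τ, h7, h8⟩
    · rcases hP s hs (hsd.trans (Subgroup.card_subgroup_dvd_card K)) with rfl | rfl | hp
      · exact Or.inl ⟨hel, h1⟩
      · exact Or.inr (Or.inl ⟨hel, h1⟩)
      · exact Or.inr (Or.inr (Or.inl ⟨s, hp, hel, h1⟩))
    · exact Or.inr (Or.inr (Or.inr h4))
    · exact absurd (hE E τ h4 h5 h7 h8) id
  choose! f hf1 hf2 hf3 hf4 using key
  have hinj : Set.InjOn f {M : Subgroup Q | ∃ x, x ∉ A ∧ M = A ⊓ cj x A} := by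
    intro M hM M' hM' e
    ext a
    rw [hf3 M hM a, hf3 M' hM' a, e]
  have hf : Finite (Subgroup N) := inferInstance
  constructor
  · rw [← hinj.ncard_image]
    have hsub : f '' {M : Subgroup Q | ∃ x, x ∉ A ∧ M = A ⊓ cj x A} ⊆
        SE N 2 ∪ SE N 3 ∪ (⋃ p ∈ P, SE N p) ∪ SS N := by
      rintro _ ⟨M, hM, rfl⟩
      rcases hf4 M hM with h1 | h1 | ⟨p, hp, h1⟩ | h1
      · exact Or.inl (Or.inl (Or.inl h1))
      · exact Or.inl (Or.inl (Or.inr h1))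
      · refine Or.inl (Or.inr ?_)
        simp only [Set.mem_iUnion]
        exact ⟨p, hp, h1⟩
      · exact Or.inr h1
    refine (Set.ncard_le_ncard hsub (Set.toFinite _)).trans ((Set.ncard_union_le _ _).trans ?_)
    refine Nat.add_le_add_right ((Set.ncard_union_le _ _).trans ?_) _
    exact Nat.add_le_add (Set.ncard_union_le _ _) (ncard_biUnion_le' _ _)
  · have hsub0 : {M : Subgroup Q | (∃ x, x ∉ A ∧ M = A ⊓ cj x A) ∧ ∀ t ∈ {t : Q | t ∈ N ∧ orderOf t = 2}, t ∉ M} ⊆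
        {M : Subgroup Q | ∃ x, x ∉ A ∧ M = A ⊓ cj x A} := fun M hM => hM.1
    rw [← (hinj.mono hsub0).ncard_image]
    have hsub : f '' {M : Subgroup Q | (∃ x, x ∉ A ∧ M = A ⊓ cj x A) ∧ ∀ t ∈ {t : Q | t ∈ N ∧ orderOf t = 2}, t ∉ M} ⊆
        SE N 3 ∪ (⋃ p ∈ P, SE N p) := by
      rintro _ ⟨M, ⟨hM, hMt⟩, rfl⟩
      rcases hf4 M hM with h1 | h1 | ⟨p, hp, h1⟩ | h1
      · exfalso
        obtain ⟨y, hy1⟩ := Subgroup.ne_bot_iff_exists_ne_one.1 h1.2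
        have hy : orderOf (y : N) = 2 := orderOf_eq_prime (h1.1.exp _ y.2) fun e => hy1 (Subtype.ext e)
        refine hMt ((y : N) : Q) ⟨(y : N).2, ?_⟩ (hf2 M hM _ y.2)
        rw [Subgroup.orderOf_coe, hy]
      · exact Or.inl h1
      · refine Or.inr ?_
        simp only [Set.mem_iUnion]
        exact ⟨p, hp, h1⟩
      · exfalso
        have : Fact (Nat.Prime 2) := ⟨Nat.prime_two⟩
        obtain ⟨y, hy⟩ := exists_prime_orderOf_dvd_card' 2 (hev _ h1)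
        refine hMt ((y : N) : Q) ⟨(y : N).2, ?_⟩ (hf2 M hM _ y.2)
        rw [Subgroup.orderOf_coe, Subgroup.orderOf_coe, hy]
    refine (Set.ncard_le_ncard hsub (Set.toFinite _)).trans ((Set.ncard_union_le _ _).trans ?_)
    exact Nat.add_le_add_left (ncard_biUnion_le' _ _) _

end Cfsg.Agent.H775.EPS
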