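import Cfsg.Agent.H59.EP.Gal

/-!
# S3499: the number of elementary abelian subgroups, by centralisers (helper775)

`ncard_elab_le_flag` : if `v_s |B| ≤ v` and `∑_{o(z) = s} |C(z)| ≤ C` then `B` has at most
`#{o(z) = s} + ∑_{2 ≤ j ≤ v} C s ^ (v (j - 2)) / ∏_{i < j} (s ^ j - s ^ i)` elementary abelian `s`-subgroups `≠ 1`.
-/

set_option autoImplicit false

namespace Cfsg.Agent.H775.EPS

open Subgroup Cfsg.Agent.H59.EP

variable {B : Type*} [Group B] {s : ℕ}

theorem good_append (l' : List B) {l : List B} (h : Good s (l' ++ l)) : Good s l := by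
  induction l' with
  | nil => exact h
  | cons x l' ih => exact ih h.1

/-- lists with entries in a subgroup -/
def LS (S : Subgroup B) (n : ℕ) : Set (List B) := {l | l.length = n ∧ ∀ x ∈ l, x ∈ S}

theorem LS_finite [Finite B] (S : Subgroup B) (n : ℕ) : (LS S n).Finite :=
  (List.finite_length_eq B n).subset fun _ h => h.1

theorem ncard_LS_le [Finite B] (S : Subgroup B) (n : ℕ) : (LS S n).ncard ≤ Nat.card S ^ n := by
  induction n with
  | zero =>
    have : LS S 0 ⊆ {[]} := by
      rintro l ⟨h, _⟩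
      exact List.length_eq_zero_iff.1 h
    refine (Set.ncard_le_ncard this (Set.toFinite _)).trans ?_
    rw [Set.ncard_singleton, pow_zero]
  | succ n ih =>
    have hsub : LS S (n + 1) ⊆ (fun p : B × List B => p.1 :: p.2) '' ((S : Set B) ×ˢ LS S n) := by
      rintro l ⟨h1, h2⟩
      cases l with
      | nil => simp at h1
      | cons x l =>
        exact ⟨(x, l), ⟨h2 x List.mem_cons_self, by simpa using h1, fun y hy => h2 y (List.mem_cons_of_mem _ hy)⟩, rfl⟩
    have hfin : ((S : Set B) ×ˢ LS S n).Finite := (Set.toFinite _).prod (LS_finite S n)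
    refine (Set.ncard_le_ncard hsub (hfin.image _)).trans ((Set.ncard_image_le hfin).trans ?_)
    rw [Set.ncard_prod, pow_succ, mul_comm]
    exact Nat.mul_le_mul ih le_rfl

theorem ncard_biUnion_le {ι α : Type*} (I : Finset ι) (f : ι → Set α) (hf : ∀ i ∈ I, (f i).Finite) :
    (⋃ i ∈ I, f i).ncard ≤ ∑ i ∈ I, (f i).ncard := by
  classical
  induction I using Finset.induction_on with
  | empty => simp
  | insert j I hj ih =>
    rw [Finset.sum_insert hj, Finset.set_biUnion_insert]
    exact (Set.ncard_union_le _ _).trans (Nat.add_le_add_left (ih fun i hi => hf i (Finset.mem_insert_of_mem hi)) _)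

/-- good lists with last entry `z` -/
theorem ncard_last_le [Finite B] (hs : s.Prime) {v : ℕ} (hv : (Nat.card B).factorization s ≤ v) (z : B) {j : ℕ}
    (hj : 2 ≤ j) :
    {l : List B | l.length = j ∧ Good s l ∧ ∃ l', l = l' ++ [z]}.ncard ≤
      Nat.card (centralizer ({z} : Set B)) * s ^ (v * (j - 2)) := by
  classical
  have hfs : Fact s.Prime := ⟨hs⟩
  have hfin : Finite (Sylow s (centralizer ({z} : Set B))) := inferInstance
  have := Fintype.ofFinite (Sylow s (centralizer ({z} : Set B)))
  let P : Sylow s (centralizer ({z} : Set B)) := default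
  set a := (Nat.card (centralizer ({z} : Set B))).factorization s with ha
  have hS : ∀ S : Sylow s (centralizer ({z} : Set B)),
      Nat.card ((S : Subgroup (centralizer ({z} : Set B))).map (centralizer ({z} : Set B)).subtype) = s ^ a := by
    intro S
    rw [Subgroup.card_map_of_injective (Subgroup.subtype_injective _)]
    exact S.card_eq_multiplicity
  have hav : a ≤ v := by
    refine le_trans ?_ hv
    exact (Nat.factorization_le_iff_dvd Nat.card_pos.ne' Nat.card_pos.ne').2 (Subgroup.card_subgroup_dvd_card _) s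
  have hsub : {l : List B | l.length = j ∧ Good s l ∧ ∃ l', l = l' ++ [z]} ⊆
      ⋃ S ∈ (Finset.univ : Finset (Sylow s (centralizer ({z} : Set B)))), (fun l' => l' ++ [z]) ''
        LS ((S : Subgroup (centralizer ({z} : Set B))).map (centralizer ({z} : Set B)).subtype) (j - 1) := by
    rintro l ⟨h1, h2, l', rfl⟩
    obtain ⟨h3, -⟩ := h2.elab hs
    have hmem : ∀ x ∈ l' ++ [z], x ∈ closure {y | y ∈ l' ++ [z]} := fun x hx => subset_closure hx
    have hz : z ∈ closure {y | y ∈ l' ++ [z]} := hmem z (by simp)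
    have hle : closure {y | y ∈ l' ++ [z]} ≤ centralizer ({z} : Set B) := by
      intro y hy
      rw [mem_centralizer_singleton_iff]
      exact h3.comm y hy z hz
    have hps : IsPGroup s ((closure {y | y ∈ l' ++ [z]}).subgroupOf (centralizer ({z} : Set B))) := by
      rintro ⟨y, hy⟩
      refine ⟨1, Subtype.ext (Subtype.ext ?_)⟩
      rw [pow_one]
      exact h3.exp y hy
    obtain ⟨S, hS'⟩ := hps.exists_le_sylow
    simp only [Finset.mem_univ, Set.iUnion_true, Set.mem_iUnion]
    refine ⟨S, l', ⟨?_, ?_⟩, rfl⟩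
    · rw [List.length_append, List.length_singleton] at h1
      omega
    · intro x hx
      have hx' := hmem x (List.mem_append_left _ hx)
      exact ⟨⟨x, hle hx'⟩, hS' hx', rfl⟩
  refine (Set.ncard_le_ncard hsub (Set.Finite.biUnion (Finset.finite_toSet _) fun S _ => (LS_finite _ _).image _)).trans
    ((ncard_biUnion_le _ _ fun S _ => (LS_finite _ _).image _).trans ?_)
  have h4 : ∀ S ∈ (Finset.univ : Finset (Sylow s (centralizer ({z} : Set B)))), ((fun l' => l' ++ [z]) ''
      LS ((S : Subgroup (centralizer ({z} : Set B))).map (centralizer ({z} : Set B)).subtype) (j - 1)).ncard ≤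
        (s ^ a) ^ (j - 1) := by
    intro S _
    refine (Set.ncard_image_le (LS_finite _ _)).trans ((ncard_LS_le _ _).trans ?_)
    rw [hS S]
  refine (Finset.sum_le_card_nsmul _ _ _ h4).trans ?_
  rw [smul_eq_mul, Finset.card_univ, ← Nat.card_eq_fintype_card]
  obtain ⟨k, rfl⟩ : ∃ k, j = k + 2 := ⟨j - 2, by omega⟩
  rw [show k + 2 - 1 = k + 1 by omega, show k + 2 - 2 = k by omega, pow_succ, mul_comm ((s ^ a) ^ k), ← mul_assoc]
  apply Nat.mul_le_mul
  · have h5 : Nat.card (Sylow s (centralizer ({z} : Set B))) ≤ (P : Subgroup (centralizer ({z} : Set B))).index := by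
      rw [P.card_eq_index_normalizer]
      exact Nat.le_of_dvd (Nat.pos_of_ne_zero Subgroup.index_ne_zero_of_finite) (Subgroup.index_dvd_of_le le_normalizer)
    have h6 := (P : Subgroup (centralizer ({z} : Set B))).index_mul_card
    rw [P.card_eq_multiplicity] at h6
    calc Nat.card (Sylow s (centralizer ({z} : Set B))) * s ^ a
        ≤ (P : Subgroup (centralizer ({z} : Set B))).index * s ^ a := Nat.mul_le_mul_right _ h5
      _ = Nat.card (centralizer ({z} : Set B)) := h6
  · rw [← pow_mul]
    exact Nat.pow_le_pow_right hs.pos (Nat.mul_le_mul_right _ hav)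

/-- all good lists -/
theorem ncard_LL_top_le [Finite B] (hs : s.Prime) {v C : ℕ} (hv : (Nat.card B).factorization s ≤ v)
    (hC : ∑ z ∈ (Set.toFinite {z : B | orderOf z = s}).toFinset, Nat.card (centralizer ({z} : Set B)) ≤ C) {j : ℕ}
    (hj : 2 ≤ j) : (LL s (⊤ : Subgroup B) j).ncard ≤ C * s ^ (v * (j - 2)) := by
  classical
  have hfs : Fact s.Prime := ⟨hs⟩
  have hfin : ∀ z : B, {l : List B | l.length = j ∧ Good s l ∧ ∃ l', l = l' ++ [z]}.Finite := fun z =>
    (List.finite_length_eq B j).subset fun _ h => h.1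
  have hsub : LL s (⊤ : Subgroup B) j ⊆ ⋃ z ∈ (Set.toFinite {z : B | orderOf z = s}).toFinset,
      {l : List B | l.length = j ∧ Good s l ∧ ∃ l', l = l' ++ [z]} := by
    rintro l ⟨h1, h2, -⟩
    rcases List.eq_nil_or_concat l with rfl | ⟨l', z, rfl⟩
    · simp at h1
      omega
    · rw [List.concat_eq_append] at *
      have h3 := good_append l' h2
      have hz : orderOf z = s := by
        apply orderOf_eq_prime h3.2.1
        rintro rfl
        exact h3.2.2.2 (one_mem _)
      simp only [Set.mem_iUnion]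
      exact ⟨z, (Set.Finite.mem_toFinset _).2 hz, h1, h2, l', rfl⟩
  refine (Set.ncard_le_ncard hsub (Set.Finite.biUnion (Finset.finite_toSet _) fun z _ => hfin z)).trans
    ((ncard_biUnion_le _ _ fun z _ => hfin z).trans ?_)
  refine (Finset.sum_le_sum fun z _ => ncard_last_le hs hv z hj).trans ?_
  rw [← Finset.sum_mul]
  exact Nat.mul_le_mul_right _ hC

/-- the elementary abelian subgroups of rank `j` -/
theorem ncard_rank_mul_le [Finite B] (hs : s.Prime) (j : ℕ) :
    {E : Subgroup B | ElAb s E ∧ Nat.card E = s ^ j}.ncard * ∏ i ∈ Finset.range j, (s ^ j - s ^ i) ≤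
      (LL s (⊤ : Subgroup B) j).ncard := by
  classical
  set 𝓔 := {E : Subgroup B | ElAb s E ∧ Nat.card E = s ^ j} with h𝓔
  have hfin : 𝓔.Finite := Set.toFinite _
  have hdis : ∀ E ∈ 𝓔, ∀ l ∈ LL s E j, closure {y | y ∈ l} = E := by
    rintro E ⟨h2, h3⟩ l ⟨h4, h5, h6⟩
    have hle : closure {y | y ∈ l} ≤ E := (closure_le _).2 h6
    apply Subgroup.eq_of_le_of_card_ge hle
    rw [(h5.elab hs).2, h4, h3]
  have hbi : (hfin.toFinset.biUnion fun E => (LL_finite (s := s) E j).toFinset) ⊆
      (LL_finite (s := s) (⊤ : Subgroup B) j).toFinset := by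
    intro l hl
    rw [Finset.mem_biUnion] at hl
    obtain ⟨E, hE, hl⟩ := hl
    rw [Set.Finite.mem_toFinset] at hE hl ⊢
    exact ⟨hl.1, hl.2.1, fun x hx => mem_top x⟩
  have hcard := Finset.card_le_card hbi
  rw [Finset.card_biUnion] at hcard
  · rw [← Set.ncard_eq_toFinset_card _ (LL_finite _ _)] at hcard
    refine le_trans ?_ hcard
    rw [Set.ncard_eq_toFinset_card _ hfin, ← smul_eq_mul]
    apply Finset.card_nsmul_le_sum
    intro E hE
    rw [Set.Finite.mem_toFinset] at hE
    rw [← Set.ncard_eq_toFinset_card _ (LL_finite _ _)]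
    have := le_ncard_LL hs hE.1 j
    rwa [hE.2] at this
  · intro E hE E' hE' hne
    rw [Function.onFun, Finset.disjoint_left]
    intro l hl hl'
    rw [Finset.mem_coe, Set.Finite.mem_toFinset] at hE hE'
    rw [Set.Finite.mem_toFinset] at hl hl'
    apply hne
    rw [← hdis E hE l hl, hdis E' hE' l hl']

/-- the bound for rank `≥ 2` -/
def flag (s v C : ℕ) : ℕ :=
  ∑ j ∈ Finset.Icc 2 v, (C * s ^ (v * (j - 2))) / (∏ i ∈ Finset.range j, (s ^ j - s ^ i))

/-- **the number of elementary abelian `s`-subgroups** -/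
theorem ncard_elab_le_flag [Finite B] (hs : s.Prime) {v C : ℕ} (hv : (Nat.card B).factorization s ≤ v)
    (hC : ∑ z ∈ (Set.toFinite {z : B | orderOf z = s}).toFinset, Nat.card (centralizer ({z} : Set B)) ≤ C) :
    {X : Subgroup B | ElAb s X ∧ X ≠ ⊥}.ncard ≤ {z : B | orderOf z = s}.ncard + flag s v C := by
  classical
  have hfs : Fact s.Prime := ⟨hs⟩
  have hsub : {X : Subgroup B | ElAb s X ∧ X ≠ ⊥} ⊆ ((fun z : B => zpowers z) '' {z : B | orderOf z = s}) ∪
      ⋃ j ∈ Finset.Icc 2 v, {E : Subgroup B | ElAb s E ∧ Nat.card E = s ^ j} := by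
    rintro X ⟨h1, h2⟩
    have hps : IsPGroup s X := by
      rintro ⟨y, hy⟩
      refine ⟨1, Subtype.ext ?_⟩
      rw [pow_one]
      exact h1.exp y hy
    obtain ⟨m, hm⟩ := IsPGroup.iff_card.1 hps
    have hmv : m ≤ v := by
      refine le_trans ?_ hv
      rw [← hs.pow_dvd_iff_le_factorization Nat.card_pos.ne', ← hm]
      exact Subgroup.card_subgroup_dvd_card _
    rcases Nat.lt_or_ge m 2 with hlt | hge
    · left
      have hm1 : m = 1 := by
        have : m ≠ 0 := by
          rintro rfl
          apply h2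
          rw [← Subgroup.card_eq_one, hm, pow_zero]
        omega
      rw [hm1, pow_one] at hm
      obtain ⟨x, hx1⟩ := Subgroup.ne_bot_iff_exists_ne_one.1 h2
      have hx : (x : B) ∈ X := x.2
      have hord : orderOf (x : B) = s := by
        apply orderOf_eq_prime (h1.exp _ hx)
        intro e
        exact hx1 (Subtype.ext e)
      refine ⟨x, hord, ?_⟩
      show zpowers (x : B) = X
      apply Subgroup.eq_of_le_of_card_ge
      · rw [zpowers_le]
        exact hx
      · rw [hm, Nat.card_zpowers, hord]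
    · right
      simp only [Set.mem_iUnion]
      exact ⟨m, Finset.mem_Icc.2 ⟨hge, hmv⟩, h1, hm⟩
  refine (Set.ncard_le_ncard hsub (Set.toFinite _)).trans ((Set.ncard_union_le _ _).trans (Nat.add_le_add
    (Set.ncard_image_le (Set.toFinite _)) ((ncard_biUnion_le _ _ fun _ _ => Set.toFinite _).trans
      (Finset.sum_le_sum fun j hj => ?_))))
  rw [Finset.mem_Icc] at hj
  rw [Nat.le_div_iff_mul_le]
  · exact (ncard_rank_mul_le hs j).trans (ncard_LL_top_le hs hv hC hj.1)
  · apply Finset.prod_pos
    intro i hi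
    rw [Finset.mem_range] at hi
    have := Nat.pow_lt_pow_right hs.one_lt hi
    omega

/-! ### classes -/

theorem ncard_class_le [Finite B] (r : B) : {z : B | ∃ g : B, z = g * r * g⁻¹}.ncard ≤ (centralizer ({r} : Set B)).index := by
  classical
  have hsub : {z : B | ∃ g : B, z = g * r * g⁻¹} ⊆ Set.range fun c : B ⧸ centralizer ({r} : Set B) => c.out * r * c.out⁻¹ := by
    rintro _ ⟨g, rfl⟩
    refine ⟨(g : B ⧸ centralizer ({r} : Set B)), ?_⟩
    obtain ⟨n, hn⟩ := QuotientGroup.mk_out_eq_mul (centralizer ({r} : Set B)) g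
    show (g : B ⧸ centralizer ({r} : Set B)).out * r * (g : B ⧸ centralizer ({r} : Set B)).out⁻¹ = g * r * g⁻¹
    rw [hn]
    have h1 : (n : B) * r = r * n := mem_centralizer_singleton_iff.1 n.2
    calc g * n * r * (g * n)⁻¹ = g * (n * r) * (n : B)⁻¹ * g⁻¹ := by group
      _ = g * r * g⁻¹ := by rw [h1]; group
  refine (Set.ncard_le_ncard hsub (Set.toFinite _)).trans ?_
  rw [← Set.image_univ]
  refine (Set.ncard_image_le (Set.toFinite _)).trans ?_
  rw [Set.ncard_univ]
  exact le_rfl

theorem card_cent_conj (g x : B) :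
    Nat.card (centralizer ({g * x * g⁻¹} : Set B)) = Nat.card (centralizer ({x} : Set B)) := by
  refine Nat.card_congr ?_
  exact
    { toFun := fun w => ⟨g⁻¹ * w * g, by
        have h3 := mem_centralizer_singleton_iff.1 w.2
        rw [mem_centralizer_singleton_iff]
        calc g⁻¹ * w * g * x = g⁻¹ * (w * (g * x * g⁻¹)) * g := by group
          _ = x * (g⁻¹ * w * g) := by rw [h3]; group⟩
      invFun := fun w => ⟨g * w * g⁻¹, by
        have h3 := mem_centralizer_singleton_iff.1 w.2
        rw [mem_centralizer_singleton_iff]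
        calc g * w * g⁻¹ * (g * x * g⁻¹) = g * (w * x) * g⁻¹ := by group
          _ = g * x * g⁻¹ * (g * w * g⁻¹) := by rw [h3]; group⟩
      left_inv := fun w => Subtype.ext (by show g * (g⁻¹ * w * g) * g⁻¹ = w; group)
      right_inv := fun w => Subtype.ext (by show g⁻¹ * (g * w * g⁻¹) * g = w; group) }

theorem sum_biUnion_le {ι α : Type*} [DecidableEq α] (I : Finset ι) (t : ι → Finset α) (f : α → ℕ) :
    ∑ x ∈ I.biUnion t, f x ≤ ∑ i ∈ I, ∑ x ∈ t i, f x := by
  classical
  induction I using Finset.induction_on with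
  | empty => simp
  | insert j I hj ih =>
    rw [Finset.biUnion_insert, Finset.sum_insert hj]
    have h1 := Finset.sum_union_inter (s₁ := t j) (s₂ := I.biUnion t) (f := f)
    omega

/-- the class equation for the elements of order `s` -/
theorem sum_cent_le [Finite B] (R : Finset B) (hR : ∀ z : B, orderOf z = s → ∃ r ∈ R, ∃ g : B, z = g * r * g⁻¹) :
    ∑ z ∈ (Set.toFinite {z : B | orderOf z = s}).toFinset, Nat.card (centralizer ({z} : Set B)) ≤ R.card * Nat.card B := by
  classical
  have hsub : (Set.toFinite {z : B | orderOf z = s}).toFinset ⊆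
      R.biUnion fun r => (Set.toFinite {z : B | ∃ g : B, z = g * r * g⁻¹}).toFinset := by
    intro z hz
    rw [Set.Finite.mem_toFinset] at hz
    obtain ⟨r, hr, h1⟩ := hR z hz
    rw [Finset.mem_biUnion]
    exact ⟨r, hr, (Set.Finite.mem_toFinset _).2 h1⟩
  refine (Finset.sum_le_sum_of_subset hsub).trans ((sum_biUnion_le _ _ _).trans ?_)
  rw [← smul_eq_mul]
  refine Finset.sum_le_card_nsmul _ _ _ fun r _ => ?_
  have h1 : ∀ z ∈ (Set.toFinite {z : B | ∃ g : B, z = g * r * g⁻¹}).toFinset,
      Nat.card (centralizer ({z} : Set B)) ≤ Nat.card (centralizer ({r} : Set B)) := by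
    intro z hz
    rw [Set.Finite.mem_toFinset] at hz
    obtain ⟨g, rfl⟩ := hz
    rw [card_cent_conj]
  refine (Finset.sum_le_card_nsmul _ _ _ h1).trans ?_
  rw [smul_eq_mul, ← Set.ncard_eq_toFinset_card _ (Set.toFinite _),
    ← (centralizer ({r} : Set B)).index_mul_card]
  exact Nat.mul_le_mul_right _ (ncard_class_le r)

end Cfsg.Agent.H775.EPS
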