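import Cfsg.Agent.H812.FiveMain

/-!
# S3499: pairs of elements of order 5 in the Suzuki group, general part (helper775)
-/

set_option autoImplicit false

namespace Cfsg.Agent.H775.EPS

open Subgroup Cfsg.Agent.J2Type.SylowFive Cfsg.Agent.H812 Cfsg.Agent.H812.FiveBasis
open scoped commutatorElement

section inverting

variable {E : Type*} [Group E] [Finite E]

/-- a perfect group of order divisible by 5 but not by 25: some element of order 5 is inverted -/
theorem exists_inv (hper : commutator E = ⊤) (h5 : 5 ∣ Nat.card E) (h25 : ¬ 25 ∣ Nat.card E) :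
    ∃ v a : E, orderOf v = 5 ∧ a * v * a⁻¹ = v⁻¹ := by
  classical
  have hf : Fact (Nat.Prime 5) := ⟨by norm_num⟩
  let P : Sylow 5 E := default
  have hP : Nat.card (P : Subgroup E) = 5 := by
    have h1 : Nat.card (P : Subgroup E) = 5 ^ (Nat.card E).factorization 5 := P.card_eq_multiplicity
    have h2 : (Nat.card E).factorization 5 = 1 := by
      apply le_antisymm
      · by_contra hlt
        push Not at hlt
        apply h25
        have h3 : 5 ^ 2 ∣ Nat.card E := (hf.out.pow_dvd_iff_le_factorization Nat.card_pos.ne').2 hlt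
        exact h3
      · exact (hf.out.dvd_iff_one_le_factorization Nat.card_pos.ne').1 h5
    rw [h1, h2, pow_one]
  have hcyc : IsCyclic (P : Subgroup E) := isCyclic_of_prime_card hP
  obtain ⟨⟨v, hvP⟩, hv⟩ := hcyc.exists_generator
  have hv5 : orderOf v = 5 := by
    have h1 : orderOf (⟨v, hvP⟩ : (P : Subgroup E)) = Nat.card (P : Subgroup E) := orderOf_eq_card_of_forall_mem_zpowers hv
    rw [hP] at h1
    rw [← h1, Subgroup.orderOf_mk]
  have hzP : ∀ y ∈ (P : Subgroup E), ∃ k < 5, y = v ^ k := by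
    intro y hy
    have h1 := hv ⟨y, hy⟩
    have h2 : (⟨y, hy⟩ : (P : Subgroup E)) ∈ Submonoid.powers (⟨v, hvP⟩ : (P : Subgroup E)) :=
      mem_powers_iff_mem_zpowers.2 h1
    obtain ⟨n, hn⟩ := h2
    have hn' : v ^ n = y := congrArg Subtype.val hn
    refine ⟨n % 5, Nat.mod_lt _ (by norm_num), ?_⟩
    rw [← hn', ← pow_mod_orderOf v n, hv5]
  -- Burnside's transfer theorem
  have hN : ¬ normalizer ((P : Subgroup E) : Set E) ≤ centralizer ((P : Subgroup E) : Set E) := by
    intro hle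
    have hdis := (MonoidHom.ker_transferSylow_isComplement' P hle)
    have hcomm : IsMulCommutative (P : Subgroup E) :=
      ⟨⟨fun a b => Subtype.ext (hle (le_normalizer b.2) a a.2)⟩⟩
    have hker : (MonoidHom.transferSylow P hle).ker = ⊤ := by
      rw [eq_top_iff, ← hper, commutator_def, commutator_le]
      intro a _ b _
      rw [MonoidHom.mem_ker, map_commutatorElement, commutatorElement_eq_one_iff_mul_comm]
      exact mul_comm' _ _
    rw [hker, isComplement'_top_left] at hdis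
    have h2 := hdis
    have h3 : Nat.card (P : Subgroup E) = 1 := by rw [h2, Subgroup.card_bot]
    rw [hP] at h3
    norm_num at h3
  obtain ⟨a, haN, haC⟩ := SetLike.not_le_iff_exists.1 hN
  have h1 : a * v * a⁻¹ ∈ (P : Subgroup E) := (mem_normalizer_iff.1 haN v).1 hvP
  obtain ⟨k, hk5, hk⟩ := hzP _ h1
  have hv5' : v ^ 5 = 1 := by rw [← hv5, pow_orderOf_eq_one]
  have hsq : a * a * v * (a * a)⁻¹ = v ^ (k * k) := by
    calc a * a * v * (a * a)⁻¹ = a * (a * v * a⁻¹) * a⁻¹ := by group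
      _ = (a * v * a⁻¹) ^ k := by rw [conj_pow, ← hk]
      _ = v ^ (k * k) := by rw [hk, ← pow_mul]
  have h4 : v ^ 4 = v⁻¹ := by
    rw [eq_inv_iff_mul_eq_one, ← pow_succ]
    exact hv5'
  refine ⟨v, ?_⟩
  interval_cases k
  · exfalso
    rw [pow_zero] at hk
    have : v = 1 := by
      calc v = a⁻¹ * (a * v * a⁻¹) * a := by group
        _ = 1 := by rw [hk]; group
    rw [this, orderOf_one] at hv5
    norm_num at hv5
  · exfalso
    apply haC
    rw [pow_one] at hk
    rw [mem_centralizer_iff]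
    intro y hy
    obtain ⟨m, -, rfl⟩ := hzP y hy
    have h2 : Commute a v := by
      show a * v = v * a
      rw [← mul_inv_eq_iff_eq_mul]
      exact hk
    exact (h2.pow_right m).eq.symm
  · refine ⟨a * a, hv5, ?_⟩
    rw [hsq]
    exact h4
  · refine ⟨a * a, hv5, ?_⟩
    rw [hsq, ← h4, show 3 * 3 = 5 + 4 by norm_num, pow_add, hv5', one_mul]
  · exact ⟨a, hv5, by rw [hk, h4]⟩

end inverting

/-! ### counting -/

/-- elements of order 5 with centraliser of order 300 -/
def G3 {G : Type*} [Group G] (y : G) : Prop := orderOf y = 5 ∧ Nat.card (centralizer ({y} : Set G)) = 300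

theorem card_cent_equiv {G H : Type*} [Group G] [Group H] (e : G ≃* H) (x : G) :
    Nat.card (centralizer ({x} : Set G)) = Nat.card (centralizer ({e x} : Set H)) := by
  refine Nat.card_congr ?_
  exact
    { toFun := fun w => ⟨e w, by
        have h3 := mem_centralizer_singleton_iff.1 w.2
        rw [mem_centralizer_singleton_iff, ← map_mul, ← map_mul, h3]⟩
      invFun := fun w => ⟨e.symm w, by
        have h3 := mem_centralizer_singleton_iff.1 w.2
        rw [mem_centralizer_singleton_iff]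
        apply e.injective
        rw [map_mul, map_mul, e.apply_symm_apply, h3]⟩
      left_inv := fun w => Subtype.ext (e.symm_apply_apply _)
      right_inv := fun w => Subtype.ext (e.apply_symm_apply _) }

theorem G3.map {G H : Type*} [Group G] [Group H] (e : G ≃* H) (x : G) : G3 (e x) ↔ G3 x := by
  unfold G3
  rw [MulEquiv.orderOf_eq, card_cent_equiv e x]

theorem G3.conj {G : Type*} [Group G] (g x : G) : G3 (g * x * g⁻¹) ↔ G3 x := G3.map (MulAut.conj g) x

variable {G : Type*} [Group G]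

theorem cent_pow {x : G} (hx : orderOf x = 5) {k : ℕ} (hk : ¬ 5 ∣ k) :
    centralizer ({x ^ k} : Set G) = centralizer ({x} : Set G) := by
  ext g
  rw [mem_centralizer_singleton_iff, mem_centralizer_singleton_iff]
  have hco : Nat.Coprime k (orderOf x) := by
    rw [hx]; exact ((Nat.Prime.coprime_iff_not_dvd (by norm_num)).2 hk).symm
  obtain ⟨m, hm⟩ := exists_pow_eq_self_of_coprime hco
  constructor
  · intro h
    have h1 : Commute g (x ^ k) := h
    have h2 := h1.pow_right m
    rw [hm] at h2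
    exact h2.eq
  · intro h
    exact ((show Commute g x from h).pow_right k).eq

theorem G3.pow {x : G} (hx : orderOf x = 5) {k : ℕ} (hk : ¬ 5 ∣ k) : G3 (x ^ k) ↔ G3 x := by
  unfold G3
  have hco : Nat.Coprime (orderOf x) k := by
    rw [hx]; exact (Nat.Prime.coprime_iff_not_dvd (by norm_num)).2 hk
  rw [cent_pow hx hk, hco.orderOf_pow]

/-- the line of a vector -/
def ln (u : V2) : Fin 4 :=
  if u.1 = 0 ∧ u.2 = 0 then 0 else if u.1 = 0 ∨ u.2 = 0 then 1 else if u.1 = u.2 ∨ u.1 = -u.2 then 2 else 3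

/-- representatives -/
def rp : Fin 4 → V2 := ![(0, 0), (1, 0), (1, 1), (1, 2)]

theorem ln_spec : ∀ u : V2, (ln u = 0 ∧ u = 0) ∨ ∃ k : ZMod 5, k ≠ 0 ∧ ((ln u ≠ 0 ∧ u = k • rp (ln u)) ∨
    (ln u ≠ 0 ∧ u = k • (-(rp (ln u)).1, (rp (ln u)).2)) ∨ (ln u = 1 ∧ u = k • ((0, 1) : V2))) := by
  decide +kernel

theorem rp_ne : ∀ i : Fin 4, i ≠ 0 → rp i ≠ 0 ∧ (-(rp i).1, (rp i).2) ≠ (0 : V2) := by decide +kernel

theorem card_ne : ∀ P : Fin 4 → Bool, P 0 = false → (Finset.univ.filter fun u : V2 => P (ln u) = true).card ≠ 12 := by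
  decide +kernel

theorem no_pair_aux {b : Fin 3 → G} (h : Bas b) (hord : ∀ u : V2, u ≠ 0 → orderOf (c b u) = 5)
    (hsw : G3 (c b (1, 0)) ↔ G3 (c b (0, 1))) (hneg : ∀ u : V2, G3 (c b (-u.1, u.2)) ↔ G3 (c b u)) :
    {u : V2 | G3 (c b u)}.ncard ≠ 12 := by
  classical
  have h0 : ¬ G3 (c b 0) := by
    intro h1
    have h2 := h1.1
    rw [c_zero, orderOf_one] at h2
    norm_num at h2
  have hsmul : ∀ (k : ZMod 5) (u : V2), k ≠ 0 → u ≠ 0 → (G3 (c b (k • u)) ↔ G3 (c b u)) := by
    intro k u hk hu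
    rw [c_smul h]
    apply G3.pow (hord u hu)
    revert k
    decide
  have key : ∀ u : V2, G3 (c b u) ↔ G3 (c b (rp (ln u))) := by
    intro u
    rcases ln_spec u with ⟨h1, h2⟩ | ⟨k, hk, ⟨hl, h1⟩ | ⟨hl, h1⟩ | ⟨hl, h1⟩⟩
    · rw [h1, h2]; rfl
    · conv_lhs => rw [h1]
      exact hsmul k _ hk (rp_ne _ hl).1
    · conv_lhs => rw [h1]
      rw [hsmul k _ hk (rp_ne _ hl).2]
      exact hneg _
    · conv_lhs => rw [h1]
      rw [hsmul k _ hk (by decide), hl]
      exact hsw.symm
  intro hcard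
  apply card_ne (fun i => decide (G3 (c b (rp i)))) (by
    rw [decide_eq_false_iff_not]
    exact h0)
  rw [← hcard, ← Set.ncard_coe_finset]
  congr 1
  ext u
  simp only [Finset.coe_filter, Finset.mem_univ, true_and, Set.mem_ofPred_eq, decide_eq_true_eq]
  exact (key u).symm

/-- **No pair `v`, `w` with `v` inverted in `C(w)`** -/
theorem no_pair [Finite G] (h12 : ∀ P : Sylow 5 G, Nat.card (P : Subgroup G) = 25 ∧
      {y | y ∈ (P : Subgroup G) ∧ G3 y}.ncard = 12) {v w a : G}
    (hv : orderOf v = 5) (hw : orderOf w = 5) (hvw : v * w = w * v) (hn : w ∉ zpowers v)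
    (hcard : Nat.card (centralizer ({v} : Set G)) = Nat.card (centralizer ({w} : Set G)))
    (hav : a * v * a⁻¹ = v⁻¹) (haw : a * w = w * a) : False := by
  classical
  have hf : Fact (Nat.Prime 5) := ⟨by norm_num⟩
  have hB : Bas ![v, w, (v * w)⁻¹] := FiveMain.bas_of hv hw hvw hn (mul_inv_cancel _)
  set b : Fin 3 → G := ![v, w, (v * w)⁻¹] with hb
  have hb0 : b 0 = v := rfl
  have hb1 : b 1 = w := rfl
  have hord : ∀ u : V2, u ≠ 0 → orderOf (c b u) = 5 := by
    intro u hu
    apply orderOf_eq_prime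
    · rw [← c_nsmul hB, FiveMain.five_smul, c_zero]
    · intro h1
      exact hu (c_eq_one hB h1)
  let H : Subgroup G :=
    { carrier := Set.range (c b)
      one_mem' := ⟨0, c_zero (b := b)⟩
      mul_mem' := by
        rintro _ _ ⟨u, rfl⟩ ⟨u', rfl⟩
        exact ⟨u + u', c_add hB u u'⟩
      inv_mem' := by
        rintro _ ⟨u, rfl⟩
        exact ⟨-u, c_neg hB u⟩ }
  have hH : IsPGroup 5 H := by
    rintro ⟨_, u, rfl⟩
    refine ⟨1, Subtype.ext ?_⟩
    show c b u ^ 5 ^ 1 = 1
    rw [pow_one, ← c_nsmul hB, FiveMain.five_smul, c_zero]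
  obtain ⟨P, hP⟩ := hH.exists_le_sylow
  obtain ⟨hP25, hP12⟩ := h12 P
  have hbP : ∀ i, b i ∈ (P : Subgroup G) := fun i => hP ⟨FiveBasis.v i, c_v hB i⟩
  apply no_pair_aux hB hord
  · have e1 : c b (1, 0) = v := by
      have := c_v hB 0
      exact this
    have e2 : c b (0, 1) = w := by
      have := c_v hB 1
      exact this
    rw [e1, e2]
    unfold G3
    rw [hv, hw, hcard]
  · intro u
    have e1 : c b (-u.1, u.2) = a * c b u * a⁻¹ := by
      have h1 : a * c b u * a⁻¹ = (a * v * a⁻¹) ^ u.1.val * (a * w * a⁻¹) ^ u.2.val := by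
        rw [conj_pow, conj_pow]
        unfold c
        rw [hb0, hb1]
        group
      have h2 : a * w * a⁻¹ = w := by rw [haw, mul_inv_cancel_right]
      rw [h1, hav, h2]
      have h3 : (-u.1, u.2) = -(u.1, (0 : ZMod 5)) + ((0 : ZMod 5), u.2) := by ext <;> simp
      rw [h3, c_add hB, c_neg hB]
      unfold c
      rw [hb0, hb1, ZMod.val_zero, pow_zero, pow_zero, mul_one, one_mul, inv_pow]
    rw [e1]
    exact G3.conj a _
  · rw [← hP12]
    have e : {y | y ∈ (P : Subgroup G) ∧ G3 y} = c b '' {u : V2 | G3 (c b u)} := by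
      ext y
      constructor
      · rintro ⟨hy, h3⟩
        obtain ⟨u, rfl⟩ := c_bij hB hP25 hbP hy
        exact ⟨u, h3, rfl⟩
      · rintro ⟨u, hu, rfl⟩
        exact ⟨mul_mem (pow_mem (hbP 0) _) (pow_mem (hbP 1) _), hu⟩
    rw [e, Set.ncard_image_of_injective _ fun u w huw => c_inj hB huw]

end Cfsg.Agent.H775.EPS
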