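import Cfsg.Agent.H173.EP.LineBound

/-!
# S3499: the hitting set bound (helper775)

`I` a set of elements `≠ 1`. If all but `r'` of the `r` groups `A ∩ A^x` contain an element of `I`, then
`|Q : A| ≤ 1 + |I| r + r' (2 (|A| / μ))`.
-/

set_option autoImplicit false

namespace Cfsg.Agent.H775.EPS

open MulAction Subgroup Cfsg.Agent.H284 Cfsg.Agent.H173.EP

variable {Q : Type*} [Group Q] {A : Subgroup Q} {Γ : Subgroup (MulAut Q)}

theorem stab_ne_bot (h : EPT A Γ) {b : Q ⧸ A} (hb : b ≠ ((1 : Q) : Q ⧸ A)) :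
    stabilizer (PG A Γ) ((1 : Q) : Q ⧸ A) ⊓ stabilizer (PG A Γ) b ≠ ⊥ := by
  intro e
  obtain ⟨x, rfl⟩ := QuotientGroup.mk_surjective b
  have hx : x ∉ A := by
    intro hx
    apply hb
    rw [eq_comm, QuotientGroup.eq, inv_one, one_mul]
    exact hx
  apply h.M0 x hx
  rw [← comap_stab (Γ := Γ)]
  have e' : stabilizer (PG A Γ) ((1 : Q) : Q ⧸ A) ⊓ stabilizer (PG A Γ) (x : Q ⧸ A) = ⊥ := e
  rw [e', Subgroup.eq_bot_iff_forall]
  intro q hq
  -- `lm` is injective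
  have hq1 : (lm q : PG A Γ) = 1 := hq
  have h2 : A.normalCore = ⊥ ∨ A.normalCore = ⊤ ∨ True := Or.inr (Or.inr trivial)
  clear h2
  -- `q` lies in every conjugate of `A`
  have h4 : ∀ y : Q, y * q * y⁻¹ ∈ A := by
    intro y
    have h4 : (lm q : PG A Γ) ∈ stabilizer (PG A Γ) ((y⁻¹ : Q) : Q ⧸ A) := by rw [hq1]; exact one_mem _
    rw [lm_stab, mem_cj, inv_inv] at h4
    exact h4
  -- the core of `A` is a `Γ`-invariant subgroup of `A` in `A^x`
  have hK := h.F1 x hx A.normalCore (Subgroup.normalCore_le A) (by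
    intro σ hσ k hk y
    have h5 := hk (σ⁻¹ y)
    have h6 := (h.inv σ hσ _).2 h5
    rw [map_mul, map_mul, map_inv, MulAut.apply_inv_self] at h6
    exact h6) (by
    intro k hk
    rw [mem_cj]
    have := hk x⁻¹
    rwa [inv_inv] at this)
  have h5 : q ∈ A.normalCore := h4
  rw [hK, Subgroup.mem_bot] at h5
  exact h5

/-- the points of a line -/
theorem ncard_pts_le [Finite Q] (hs : IsSimpleGroup Q) (h : EPT A Γ) {μ : ℕ} (hμ : 0 < μ)
    (hmu : ∀ x, x ∉ A → μ ≤ Nat.card (A ⊓ cj x A : Subgroup Q)) {x : Q} (hx : x ∉ A) :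
    {c : Q ⧸ A | ∃ y, y ∉ A ∧ c = (y : Q ⧸ A) ∧ A ⊓ cj y A = A ⊓ cj x A}.ncard ≤ 2 * (Nat.card A / μ) := by
  have hE := epa h hs
  have hb : (x : Q ⧸ A) ≠ ((1 : Q) : Q ⧸ A) := by
    intro e
    apply hx
    rw [eq_comm, QuotientGroup.eq, inv_one, one_mul] at e
    exact e
  refine le_trans (Set.ncard_le_ncard ?_ (Set.toFinite _))
    (ncard_line_le hE (D := Nat.card A / μ) (card_stab_le hs h hμ hmu) hb (stab_ne_bot h hb))
  rintro _ ⟨y, hy, rfl, e⟩ s hs'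
  obtain ⟨σ, hσ, e1⟩ := stab_base h hs'.1
  have h1 : s ∈ stabilizer (PG A Γ) (y : Q ⧸ A) :=
    (sg_stab e1 y).2 (stab_of_eq h hy e.symm hσ ((sg_stab e1 x).1 hs'.2))
  exact h1

/-- **the hitting set bound** -/
theorem index_le_hit [Finite Q] (hs : IsSimpleGroup Q) (h : EPT A Γ) {μ : ℕ} (hμ : 0 < μ)
    (hmu : ∀ x, x ∉ A → μ ≤ Nat.card (A ⊓ cj x A : Subgroup Q)) (I : Set Q) (hI : ∀ t ∈ I, t ≠ 1) :
    A.index ≤ 1 + I.ncard * {M : Subgroup Q | ∃ x, x ∉ A ∧ M = A ⊓ cj x A}.ncard +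
      {M : Subgroup Q | (∃ x, x ∉ A ∧ M = A ⊓ cj x A) ∧ ∀ t ∈ I, t ∉ M}.ncard * (2 * (Nat.card A / μ)) := by
  classical
  have := Fintype.ofFinite (Q ⧸ A)
  set r := {M : Subgroup Q | ∃ x, x ∉ A ∧ M = A ⊓ cj x A}.ncard with hr
  set R' := {M : Subgroup Q | (∃ x, x ∉ A ∧ M = A ⊓ cj x A) ∧ ∀ t ∈ I, t ∉ M} with hR'
  have hIf : I.Finite := Set.toFinite _
  have hRf : R'.Finite := Set.toFinite _
  have hcov : (Finset.univ.erase ((1 : Q) : Q ⧸ A) : Finset (Q ⧸ A)) ⊆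
      (hIf.toFinset.biUnion fun t => Finset.univ.filter fun c : Q ⧸ A => t • c = c) ∪
        (hRf.toFinset.biUnion fun M => Finset.univ.filter fun c : Q ⧸ A =>
          ∃ y, y ∉ A ∧ c = (y : Q ⧸ A) ∧ A ⊓ cj y A = M) := by
    intro b hb
    rw [Finset.mem_erase] at hb
    obtain ⟨x, rfl⟩ := QuotientGroup.mk_surjective b
    have hx : x ∉ A := by
      intro hx
      apply hb.1
      rw [eq_comm, QuotientGroup.eq, inv_one, one_mul]
      exact hx
    rw [Finset.mem_union]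
    by_cases ht : ∃ t ∈ I, t ∈ A ⊓ cj x A
    · obtain ⟨t, ht, htM⟩ := ht
      left
      rw [Finset.mem_biUnion]
      refine ⟨t, hIf.mem_toFinset.2 ht, ?_⟩
      rw [Finset.mem_filter]
      refine ⟨Finset.mem_univ _, ?_⟩
      have h1 := mem_cj.1 (mem_inf.1 htM).2
      change ((t * x : Q) : Q ⧸ A) = (x : Q ⧸ A)
      rw [eq_comm, QuotientGroup.eq, ← mul_assoc]
      exact h1
    · right
      push Not at ht
      rw [Finset.mem_biUnion]
      refine ⟨A ⊓ cj x A, hRf.mem_toFinset.2 ⟨⟨x, hx, rfl⟩, ht⟩, ?_⟩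
      rw [Finset.mem_filter]
      exact ⟨Finset.mem_univ _, x, hx, rfl, rfl⟩
  have h1 := (Finset.card_le_card hcov).trans (Finset.card_union_le _ _)
  rw [Finset.card_erase_of_mem (Finset.mem_univ _), Finset.card_univ, ← Nat.card_eq_fintype_card] at h1
  have h2 : (hIf.toFinset.biUnion fun t => Finset.univ.filter fun c : Q ⧸ A => t • c = c).card ≤ I.ncard * r := by
    refine Finset.card_biUnion_le.trans ?_
    refine (Finset.sum_le_card_nsmul _ _ r ?_).trans ?_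
    · intro t ht
      refine le_trans (le_of_eq ?_) (h.fix_le t (hI t (hIf.mem_toFinset.1 ht)))
      rw [Set.ncard_eq_toFinset_card']
      congr 1
      ext c
      simp
    · rw [smul_eq_mul, ← Set.ncard_eq_toFinset_card _ hIf]
  have h3 : (hRf.toFinset.biUnion fun M => Finset.univ.filter fun c : Q ⧸ A =>
          ∃ y, y ∉ A ∧ c = (y : Q ⧸ A) ∧ A ⊓ cj y A = M).card ≤ R'.ncard * (2 * (Nat.card A / μ)) := by
    refine Finset.card_biUnion_le.trans ?_
    refine (Finset.sum_le_card_nsmul _ _ (2 * (Nat.card A / μ)) ?_).trans ?_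
    · intro M hM
      obtain ⟨⟨x, hx, rfl⟩, _⟩ := hRf.mem_toFinset.1 hM
      refine le_trans (le_of_eq ?_) (ncard_pts_le hs h hμ hmu hx)
      rw [Set.ncard_eq_toFinset_card']
      congr 1
      ext c
      simp
    · rw [smul_eq_mul, ← Set.ncard_eq_toFinset_card _ hRf]
  have h4 : A.index = Nat.card (Q ⧸ A) := rfl
  rw [h4]
  have h5 := h1.trans (Nat.add_le_add h2 h3)
  omega

end Cfsg.Agent.H775.EPS
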