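import Cfsg.Agent.H59.EP.Count

/-!
# S3499: the number of simple subgroups, with restricted generating pairs (helper775)
-/

set_option autoImplicit false

namespace Cfsg.Agent.H775.EPS

open Subgroup Cfsg.Agent.H59.EP

universe u

variable {B : Type u} [Group B]

/-- `T` a set of pairs invariant under conjugation, `𝒮` a set of nonabelian simple subgroups of order `≥ m` generated by
pairs in `T`: `|𝒮| m ≤ |T|` -/
theorem ncard_simple_mul_le [Finite B] {𝒮 : Set (Subgroup B)} {m : ℕ}
    (hs : ∀ X ∈ 𝒮, IsSimpleGroup X ∧ ¬ Group.IsSolvable X) (hm : ∀ X ∈ 𝒮, m ≤ Nat.card X) (T : Set (B × B))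
    (hT : ∀ g : B, ∀ p ∈ T, (g * p.1 * g⁻¹, g * p.2 * g⁻¹) ∈ T)
    (hgen : ∀ X ∈ 𝒮, ∃ a b : X, ((a : B), (b : B)) ∈ T ∧ closure ({a, b} : Set X) = ⊤) :
    𝒮.ncard * m ≤ T.ncard := by
  classical
  have hfin : 𝒮.Finite := Set.toFinite _
  let G : Subgroup B → Set (B × B) := fun X => {p | p ∈ T ∧ closure ({p.1, p.2} : Set B) = X}
  have hG : ∀ X ∈ 𝒮, m ≤ (G X).ncard := by
    intro X hX
    obtain ⟨hXs, hXn⟩ := hs X hX
    obtain ⟨a, b, habT, hab⟩ := hgen X hX
    refine (hm X hX).trans ?_
    have hcl : closure ({(a : B), (b : B)} : Set B) = X := by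
      have h1 := congrArg (Subgroup.map X.subtype) hab
      rw [MonoidHom.map_closure, Set.image_pair, ← MonoidHom.range_eq_map, X.range_subtype] at h1
      exact h1
    have hinj : Set.InjOn (fun g : B => (g * a * g⁻¹, g * b * g⁻¹)) (X : Set B) := by
      intro g hg k hk e
      simp only [Prod.mk.injEq] at e
      have h1 : ∀ x ∈ X, (k⁻¹ * g) * x = x * (k⁻¹ * g) := by
        have hle : X ≤ centralizer {k⁻¹ * g} := by
          rw [← hcl, closure_le]
          rintro x (rfl | rfl)
          · rw [SetLike.mem_coe, mem_centralizer_singleton_iff]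
            have h2 := e.1
            rw [mul_inv_eq_iff_eq_mul] at h2
            have h3 : k⁻¹ * (g * a) = a * k⁻¹ * g := by rw [h2]; group
            rw [mul_assoc k⁻¹ g, h3, mul_assoc]
          · rw [SetLike.mem_coe, mem_centralizer_singleton_iff]
            have h2 := e.2
            rw [mul_inv_eq_iff_eq_mul] at h2
            have h3 : k⁻¹ * (g * b) = b * k⁻¹ * g := by rw [h2]; group
            rw [mul_assoc k⁻¹ g, h3, mul_assoc]
        intro x hx
        exact (mem_centralizer_singleton_iff.1 (hle hx)).symm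
      have hz : (⟨k⁻¹ * g, mul_mem (inv_mem hk) hg⟩ : X) ∈ center X := by
        rw [mem_center_iff]
        intro x
        exact Subtype.ext (h1 x x.2).symm
      have hzb : center X = ⊥ := by
        rcases hXs.eq_bot_or_eq_top_of_normal (center X) inferInstance with h2 | h2
        · exact h2
        · exfalso
          apply hXn
          apply Group.isSolvable_of_comm
          intro x y
          have : y ∈ center X := by rw [h2]; exact mem_top _
          exact mem_center_iff.1 this x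
      rw [hzb, mem_bot] at hz
      have h2 : k⁻¹ * g = 1 := Subtype.ext_iff.1 hz
      rw [inv_mul_eq_one] at h2
      exact h2.symm
    have hcard : Nat.card X = ((fun g : B => (g * (a : B) * g⁻¹, g * (b : B) * g⁻¹)) '' (X : Set B)).ncard := by
      rw [hinj.ncard_image]
      rfl
    rw [hcard]
    refine Set.ncard_le_ncard ?_ (Set.toFinite _)
    rintro _ ⟨g, hg, rfl⟩
    refine ⟨hT g _ habT, ?_⟩
    show closure ({g * (a : B) * g⁻¹, g * (b : B) * g⁻¹} : Set B) = X
    have h1 : ({g * (a : B) * g⁻¹, g * (b : B) * g⁻¹} : Set B) = (MulAut.conj g).toMonoidHom '' {(a : B), (b : B)} := by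
      rw [Set.image_pair]
      rfl
    rw [h1, ← MonoidHom.map_closure, hcl]
    ext y
    constructor
    · rintro ⟨x, hx, rfl⟩
      exact X.mul_mem (X.mul_mem hg hx) (X.inv_mem hg)
    · intro hy
      refine ⟨g⁻¹ * y * g, X.mul_mem (X.mul_mem (X.inv_mem hg) hy) hg, ?_⟩
      show g * (g⁻¹ * y * g) * g⁻¹ = y
      group
  have hdis : (hfin.toFinset : Set (Subgroup B)).PairwiseDisjoint fun X => (Set.toFinite (G X)).toFinset := by
    intro X _ Y _ hne
    rw [Function.onFun, Finset.disjoint_left]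
    intro p hp hq
    rw [Set.Finite.mem_toFinset] at hp hq
    exact hne (hp.2.symm.trans hq.2)
  have h1 : (hfin.toFinset.biUnion fun X => (Set.toFinite (G X)).toFinset).card ≤ T.ncard := by
    rw [Set.ncard_eq_toFinset_card T (Set.toFinite _)]
    apply Finset.card_le_card
    intro p hp
    rw [Finset.mem_biUnion] at hp
    obtain ⟨X, -, hp⟩ := hp
    rw [Set.Finite.mem_toFinset] at hp ⊢
    exact hp.1
  rw [Finset.card_biUnion hdis] at h1
  refine le_trans ?_ h1
  rw [Set.ncard_eq_toFinset_card _ hfin, ← smul_eq_mul]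
  apply Finset.card_nsmul_le_sum
  intro X hX
  rw [← Set.ncard_eq_toFinset_card _ (Set.toFinite _)]
  exact hG X (hfin.mem_toFinset.1 hX)

/-- finite simple nonabelian groups of order dividing `n` and less than `m` are generated by an involution and another
element (a consequence of `S3938`) -/
def InvGen (n m : ℕ) : Prop := ∀ (X : Type u) [Group X] [Finite X], IsSimpleGroup X → ¬ Group.IsSolvable X →
  Nat.card X ∣ n → Nat.card X < m → ∃ z y : X, orderOf z = 2 ∧ closure ({z, y} : Set X) = ⊤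

/-- the simple subgroups -/
theorem ncard_simple_le_inv [Finite B] {m : ℕ} (hm : 0 < m) (hI : InvGen.{u} (Nat.card B) m)
    (hg : ∀ (X : Type u) [Group X] [Finite X] [IsSimpleGroup X], ∃ x y : X, Subgroup.closure ({x, y} : Set X) = ⊤)
    {𝒮 : Set (Subgroup B)} (hs : ∀ X ∈ 𝒮, IsSimpleGroup X ∧ ¬ Group.IsSolvable X) :
    𝒮.ncard ≤ {z : B | orderOf z = 2}.ncard * Nat.card B / 60 + Nat.card B ^ 2 / m := by
  classical
  have hun : 𝒮 ⊆ {X ∈ 𝒮 | Nat.card X < m} ∪ {X ∈ 𝒮 | m ≤ Nat.card X} := by
    intro X hX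
    rcases Nat.lt_or_ge (Nat.card X) m with h | h
    · exact Or.inl ⟨hX, h⟩
    · exact Or.inr ⟨hX, h⟩
  refine (Set.ncard_le_ncard hun (Set.toFinite _)).trans ((Set.ncard_union_le _ _).trans (Nat.add_le_add ?_ ?_))
  · rw [Nat.le_div_iff_mul_le (by norm_num)]
    have h1 := ncard_simple_mul_le (𝒮 := {X ∈ 𝒮 | Nat.card X < m}) (m := 60) (fun X hX => hs X hX.1)
      (fun X hX => Cfsg.Agent.H168.NoSolv.sixty_le (hs X hX.1).2) ({z : B | orderOf z = 2} ×ˢ (Set.univ : Set B)) (by
        rintro g ⟨a, b⟩ ⟨ha, -⟩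
        refine ⟨?_, Set.mem_univ _⟩
        show orderOf (g * a * g⁻¹) = 2
        rw [show g * a * g⁻¹ = MulAut.conj g a from rfl, MulEquiv.orderOf_eq]
        exact ha) (by
        intro X hX
        obtain ⟨z, y, hz, hzy⟩ := hI X (hs X hX.1).1 (hs X hX.1).2 (Subgroup.card_subgroup_dvd_card X) hX.2
        refine ⟨z, y, ⟨?_, Set.mem_univ _⟩, hzy⟩
        show orderOf (z : B) = 2
        rw [Subgroup.orderOf_coe, hz])
    rwa [Set.ncard_prod, Set.ncard_univ] at h1
  · rw [Nat.le_div_iff_mul_le hm]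
    have h1 := ncard_simple_mul_le (𝒮 := {X ∈ 𝒮 | m ≤ Nat.card X}) (m := m) (fun X hX => hs X hX.1)
      (fun X hX => hX.2) (Set.univ : Set (B × B)) (fun _ _ _ => Set.mem_univ _) (by
        intro X hX
        have := (hs X hX.1).1
        obtain ⟨x, y, hxy⟩ := hg X
        exact ⟨x, y, Set.mem_univ _, hxy⟩)
    rwa [Set.ncard_univ, Nat.card_prod, ← pow_two] at h1

end Cfsg.Agent.H775.EPS
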