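import Cfsg.Agent.H775.EPS.Elab
import Cfsg.Agent.H245.SuzInv
import Cfsg.Agent.H265.SuzEven
import Cfsg.Agent.CpAutSuz.Local
import Cfsg.Agent.KFacts.SuzOut

/-!
# S3499: numbers for the Suzuki group (helper775)
-/

set_option autoImplicit false

namespace Cfsg.Agent.H775.EPS

open Subgroup Cfsg
open Cfsg.Spor (Suz IsoSuz)

theorem reps_two : ∃ a b : Suz, Nat.card (centralizer ({a} : Set Suz)) = 3317760 ∧
    Nat.card (centralizer ({b} : Set Suz)) = 161280 ∧
    ∀ t : Suz, orderOf t = 2 → (∃ g, t = g * a * g⁻¹) ∨ ∃ g, t = g * b * g⁻¹ := by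
  refine ⟨Cfsg.Agent.SuzThree.CentA.z0, Cfsg.Agent.KFacts.SuzLFour.e0, KFacts.SuzCent.card_C1,
    KFacts.SuzTwoB.card_CE, ?_⟩
  intro t ht
  rcases CpAutSuz.Classes.exists_conj_inv ht with ⟨g, hg⟩ | ⟨g, hg⟩
  · exact Or.inl ⟨g, hg.symm⟩
  · exact Or.inr ⟨g, hg.symm⟩

theorem reps_three : ∃ a b c : Suz, ∀ t : Suz, orderOf t = 3 →
    (∃ g, t = g * a * g⁻¹) ∨ (∃ g, t = g * b * g⁻¹) ∨ ∃ g, t = g * c * g⁻¹ := by
  refine ⟨Cfsg.Agent.SuzThree.ThreeWr.y0, CpAutSuz.Classes.z1, CpAutSuz.Classes.t1, ?_⟩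
  intro g hg
  obtain ⟨u, huu, hu1, hus⟩ := H265.SuzEven.exists_inv (s := g) (by rw [← hg]; exact pow_orderOf_eq_one g)
  have hu : orderOf u = 2 := orderOf_eq_prime (by rw [pow_two]; exact huu) hu1
  have hconj : ∀ h t : Suz, h * t * h⁻¹ = u → orderOf (h⁻¹ * g * h) = 3 ∧ (h⁻¹ * g * h) * t = t * (h⁻¹ * g * h) := by
    intro h t ht
    refine ⟨?_, ?_⟩
    · have h1 : orderOf (MulAut.conj h⁻¹ g) = orderOf g := MulEquiv.orderOf_eq _ _
      rw [MulAut.conj_apply, inv_inv] at h1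
      rw [h1, hg]
    · calc h⁻¹ * g * h * t = h⁻¹ * (g * (h * t * h⁻¹)) * h := by group
        _ = t * (h⁻¹ * g * h) := by rw [ht, ← hus, ← ht]; group
  have key : ∀ h c t : Suz, c * (h⁻¹ * g * h) * c⁻¹ = t → ∃ d, g = d * t * d⁻¹ := by
    intro h c t ht
    refine ⟨h * c⁻¹, ?_⟩
    rw [← ht]
    group
  rcases CpAutSuz.Classes.exists_conj_inv hu with ⟨h, hh⟩ | ⟨h, hh⟩
  · obtain ⟨h1, h2⟩ := hconj h _ hh
    rcases CpAutSuz.Classes.conj_of_z0 h1 h2 with ⟨c, hc⟩ | ⟨c, hc⟩
    · exact Or.inl (key h c _ hc)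
    · exact Or.inr (Or.inl (key h c _ hc))
  · obtain ⟨h1, h2⟩ := hconj h _ hh
    obtain ⟨c, hc⟩ := CpAutSuz.Classes.conj_of_e0 h1 h2
    exact Or.inr (Or.inr (key h c _ hc))

section

variable {B : Type*} [Group B]

theorem card_suz_iso (h : IsoSuz B) : Nat.card B = 448345497600 := by
  obtain ⟨e⟩ := h
  rw [Nat.card_congr e.toEquiv]
  exact SporadicRecognition.SuzOrder.card_Suz

theorem finite_suz_iso (h : IsoSuz B) : Finite B := Nat.finite_of_card_ne_zero (by rw [card_suz_iso h]; norm_num)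

theorem cent_map {G H : Type*} [Group G] [Group H] (e : G ≃* H) (x : G) :
    Nat.card (centralizer ({e x} : Set H)) = Nat.card (centralizer ({x} : Set G)) := by
  symm
  refine Nat.card_congr ?_
  exact
    { toFun := fun w => ⟨e w, by
        have h3 := mem_centralizer_singleton_iff.1 w.2
        rw [mem_centralizer_singleton_iff, ← map_mul, ← map_mul, h3]⟩
      invFun := fun w => ⟨e.symm w, by
        have h3 := mem_centralizer_singleton_iff.1 w.2
        rw [mem_centralizer_singleton_iff]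
        apply e.injective
        rw [map_mul, map_mul, e.apply_symm_apply, h3]⟩
      left_inv := fun w => Subtype.ext (e.symm_apply_apply _)
      right_inv := fun w => Subtype.ext (e.apply_symm_apply _) }

theorem conj_symm (e : B ≃* Suz) {t : B} {a : Suz} (h : ∃ g, e t = g * a * g⁻¹) : ∃ g : B, t = g * e.symm a * g⁻¹ := by
  obtain ⟨g, hg⟩ := h
  refine ⟨e.symm g, ?_⟩
  rw [← map_inv, ← map_mul, ← map_mul, ← hg, e.symm_apply_apply]

/-- the classes of involutions -/
theorem reps_two' (h : IsoSuz B) : ∃ a b : B, Nat.card (centralizer ({a} : Set B)) = 3317760 ∧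
    Nat.card (centralizer ({b} : Set B)) = 161280 ∧
    ∀ t : B, orderOf t = 2 → (∃ g, t = g * a * g⁻¹) ∨ ∃ g, t = g * b * g⁻¹ := by
  obtain ⟨e⟩ := h
  obtain ⟨a, b, h1, h2, h3⟩ := reps_two
  refine ⟨e.symm a, e.symm b, by rw [cent_map]; exact h1, by rw [cent_map]; exact h2, ?_⟩
  intro t ht
  rcases h3 (e t) (by rw [MulEquiv.orderOf_eq, ht]) with h4 | h4
  · exact Or.inl (conj_symm e h4)
  · exact Or.inr (conj_symm e h4)

/-- **the number of involutions** -/
theorem ncard_inv_le (h : IsoSuz B) : {z : B | orderOf z = 2}.ncard ≤ 2915055 := by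
  have hfin := finite_suz_iso h
  obtain ⟨a, b, ha, hb, hab⟩ := reps_two' h
  have hsub : {z : B | orderOf z = 2} ⊆ {z : B | ∃ g : B, z = g * a * g⁻¹} ∪ {z : B | ∃ g : B, z = g * b * g⁻¹} := by
    intro z hz
    exact hab z hz
  refine (Set.ncard_le_ncard hsub (Set.toFinite _)).trans ((Set.ncard_union_le _ _).trans ?_)
  have h1 := ncard_class_le a
  have h2 := ncard_class_le b
  have h3 := (centralizer ({a} : Set B)).card_mul_index
  have h4 := (centralizer ({b} : Set B)).card_mul_index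
  rw [ha, card_suz_iso h] at h3
  rw [hb, card_suz_iso h] at h4
  omega

theorem sum_two (h : IsoSuz B) [Finite B] :
    ∑ z ∈ (Set.toFinite {z : B | orderOf z = 2}).toFinset, Nat.card (centralizer ({z} : Set B)) ≤ 2 * 448345497600 := by
  classical
  obtain ⟨a, b, -, -, hab⟩ := reps_two' h
  refine (sum_cent_le {a, b} ?_).trans ?_
  · intro z hz
    rcases hab z hz with h1 | h1
    · exact ⟨a, by simp, h1⟩
    · exact ⟨b, by simp, h1⟩
  · rw [card_suz_iso h]
    exact Nat.mul_le_mul_right _ Finset.card_le_two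

theorem sum_three (h : IsoSuz B) [Finite B] :
    ∑ z ∈ (Set.toFinite {z : B | orderOf z = 3}).toFinset, Nat.card (centralizer ({z} : Set B)) ≤ 3 * 448345497600 := by
  classical
  have hc := card_suz_iso h
  obtain ⟨e⟩ := h
  obtain ⟨a, b, c, habc⟩ := reps_three
  refine (sum_cent_le {e.symm a, e.symm b, e.symm c} ?_).trans ?_
  · intro z hz
    rcases habc (e z) (by rw [MulEquiv.orderOf_eq, hz]) with h1 | h1 | h1
    · exact ⟨e.symm a, by simp, conj_symm e h1⟩
    · exact ⟨e.symm b, by simp, conj_symm e h1⟩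
    · exact ⟨e.symm c, by simp, conj_symm e h1⟩
  · rw [hc]
    exact Nat.mul_le_mul_right _ Finset.card_le_three

theorem fact2 (h : IsoSuz B) : (Nat.card B).factorization 2 ≤ 13 := by
  rw [card_suz_iso h]
  by_contra hlt
  push Not at hlt
  have h1 : 2 ^ 14 ∣ 448345497600 := (Nat.prime_two.pow_dvd_iff_le_factorization (by norm_num)).2 hlt
  norm_num at h1

theorem fact3 (h : IsoSuz B) : (Nat.card B).factorization 3 ≤ 7 := by
  rw [card_suz_iso h]
  by_contra hlt
  push Not at hlt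
  have h1 : 3 ^ 8 ∣ 448345497600 := (Nat.prime_three.pow_dvd_iff_le_factorization (by norm_num)).2 hlt
  norm_num at h1

/-- `|Aut Suz|` -/
theorem aut_suz (h : IsoSuz B) : Nat.card (MulAut B) ∣ 896690995200 := by
  obtain ⟨e⟩ := h
  rw [Nat.card_congr (MulAut.congr e).toEquiv]
  have h1 := card_mul_index (MulAut.conj : Spor.Suz →* MulAut Spor.Suz).range
  rw [← h1, show 896690995200 = 448345497600 * 2 by norm_num]
  refine mul_dvd_mul ?_ ?_
  · have h2 : Nat.card Spor.Suz = 448345497600 := SporadicRecognition.SuzOrder.card_Suz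
    rw [← h2]
    exact Subgroup.card_range_dvd _
  · rcases Cfsg.Agent.KFacts.SuzOut.index_eq with h2 | h2 <;> rw [h2]
    exact one_dvd 2

end

end Cfsg.Agent.H775.EPS
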